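import Cfsg.Agent.Lib.LSt.Tree
import Cfsg.Agent.Lib.Fusion.Mor

/-! Every fusion system is realized by a virtually free group (Leary and Stancu). -/

set_option autoImplicit false

namespace CfsgLib.LSt

open Cfsg CfsgLib.Fusion SemidirectProduct

universe u

variable {Ω : Type u} [Group Ω] {S : Subgroup Ω} {F : FusionSystem S} {A : Type u} [Group A]

/-- The morphisms. -/
abbrev Ix (F : FusionSystem S) : Type u := {x : Σ P : Subgroup Ω, P →* Ω // x.2 ∈ F.Hom x.1}

/-- The source. -/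
def src (i : Ix F) : i.1.1 →* S := Subgroup.inclusion (mor_of_mem i.2).le

/-- The target. -/
def tgt (i : Ix F) : i.1.1 →* S := i.1.2.codRestrict S fun x =>
  extFun_coe i.1.2 x ▸ (mor_of_mem i.2).mem x.2

theorem tgt_inj (i : Ix F) : Function.Injective (tgt i) := fun x y h => Subtype.ext
  ((mor_of_mem i.2).inj x.2 y.2 (by rw [extFun_coe, extFun_coe]; exact congrArg Subtype.val h))

/-- The edges. -/
abbrev Ed (F : FusionSystem S) (l : S →* A) : Type u := Σ i : Ix F, A ⧸ (l.comp (tgt i)).range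

variable {l : S →* A} {σ : Ix F → A} (hσ : ∀ i u, σ i * l (src i u) * (σ i)⁻¹ = l (tgt i u))

/-- The end points. -/
def ends (x : Ed F l × Bool) : A ⧸ l.range := Quotient.liftOn' x.1.2
  (fun τ => QuotientGroup.mk (τ * if x.2 then 1 else σ x.1.1)) fun a b h => by
    obtain ⟨u, hu⟩ := QuotientGroup.leftRel_apply.1 h
    refine QuotientGroup.eq.2 ?_
    rw [mul_inv_rev, mul_assoc, ← mul_assoc a⁻¹, ← hu, MonoidHom.comp_apply]
    split_ifs
    · simp
    · rw [← hσ]; simp [mul_assoc]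

theorem gr_ends : Gr A (ends hσ) := ⟨fun a ⟨⟨i, q⟩, b⟩ => by
  obtain ⟨τ, rfl⟩ := QuotientGroup.mk_surjective q
  exact congrArg QuotientGroup.mk (mul_assoc _ _ _)⟩

/-- The conjugates of the `k u` by `τ` define a morphism. -/
def At (F : FusionSystem S) (l : S →* A) {P : Subgroup Ω} (k : P → A) (τ : A) : Prop :=
  ∃ f, Mor F P f ∧ ∀ (u : P) h, l ⟨f u, h⟩ = τ⁻¹ * k u * τ

variable {P : Subgroup Ω} {k : P → A} {τ ρ : A}

theorem At.of_eq (h : At F l k ρ) (e : (τ : A ⧸ l.range) = ρ) : At F l k τ := by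
  obtain ⟨f, hf, h⟩ := h
  obtain ⟨t, ht⟩ := QuotientGroup.eq.1 e
  refine ⟨_, hf.conj_left t.2, fun u hu => ?_⟩
  rw [show (⟨_, hu⟩ : S) = t * ⟨f u, hf.mem u.2⟩ * t⁻¹ from rfl, map_mul, map_mul, map_inv, h, ht]
  group

theorem At.of_path (hl : Function.Injective l) {L : List (Ed F l × Bool)}
    (h : Path (ends hσ) τ L ρ) (h1 : ∀ u, ∀ x ∈ L, sm (k u) x = x) (h2 : At F l k ρ) :
    At F l k τ := by
  induction L generalizing τ with
  | nil => exact h2.of_eq h
  | cons x L ih =>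
    obtain ⟨⟨i, q⟩, b⟩ := x
    obtain ⟨π, rfl⟩ := QuotientGroup.mk_surjective q
    obtain ⟨f, hf, e⟩ := ih (τ := π * if !b then 1 else σ i) h.2
      fun u x hx => h1 u x (List.mem_cons_of_mem _ hx)
    refine At.of_eq (ρ := π * if b then 1 else σ i) ?_ h.1.symm
    choose w hw using fun u => QuotientGroup.eq.1 (eq_of_heq (Sigma.mk.inj
      (congrArg Prod.fst (h1 u _ List.mem_cons_self))).2.symm :
        (π : A ⧸ (l.comp (tgt i)).range) = (k u * π : A))
    have hk : ∀ u, k u = π * l (tgt i (w u)) * π⁻¹ := fun u => by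
      rw [← MonoidHom.comp_apply, hw]; group
    have hm := mor_of_mem i.2
    cases b
    · obtain ⟨g, hg, g1, -⟩ := hm.exists_inv
      have e1 : ∀ u : P, f u = extFun i.1.2 (w u) := fun u =>
        (congrArg Subtype.val (hl ((e u (hf.mem u.2)).trans
          (by simp [hk, mul_assoc] : _ = l (tgt i (w u)))))).trans (extFun_coe _ _).symm
      refine ⟨_, hf.comp' hg fun u hu => (e1 ⟨u, hu⟩).symm ▸ mem_img_of_mem _ (w _).2,
        fun u hu => ?_⟩
      rw [show (⟨_, hu⟩ : S) = src i (w u) from Subtype.ext (by simp only [e1, g1 _ (w u).2]; rfl)]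
      simp [hk, ← hσ, mul_assoc]
    · have e1 : ∀ u : P, f u = w u := fun u =>
        congrArg Subtype.val (hl ((e u (hf.mem u.2)).trans
          (by simp [hk, ← hσ, mul_assoc] : _ = l (src i (w u)))))
      refine ⟨_, hf.comp' hm fun u hu => (e1 ⟨u, hu⟩).symm ▸ (w _).2, fun u hu => ?_⟩
      rw [show (⟨_, hu⟩ : S) = tgt i (w u) from Subtype.ext (by simp only [e1, extFun_coe]; rfl)]
      simp [hk, mul_assoc]

include hσ in
theorem realize (hl : Function.Injective l) : ∃ (G : Type u) (_ : Group G) (ι : S →* G),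
    F.IsRealizedBy ι ∧ (∀ H : Subgroup G, Finite H → ∃ g : G, ∀ h ∈ H, g * h * g⁻¹ ∈ ι.range) ∧
      ∃ N : Subgroup G, N.Normal ∧ IsFreeGroup N ∧ N.index ∣ Nat.card A := by
  let _ : DecidableEq (Ed F l) := Classical.decEq _
  let v : A ⧸ l.range := QuotientGroup.mk 1
  let G := lifts (gr_ends hσ) v
  let ι : S →* G := ((inr : A →* FreeGroup (Ed F l) ⋊[ac A (Ed F l)] A).comp l).codRestrict G fun x => by
    have h1 : Path (ends hσ) v [] (l x • v) :=
      (QuotientGroup.eq.2 (by simp) : v = QuotientGroup.mk (l x * 1))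
    exact h1
  have hι : ∀ x, (ι x).1 = inr (l x) := fun _ => rfl
  refine ⟨G, inferInstance, ι, ⟨fun a b h => hl (congrArg (fun g : G => g.1.right) h),
    fun P hP φ hφ => ⟨fun h => ?_, fun hg => ?_⟩⟩, fun H _ => ?_,
    (rightHom.comp G.subtype).ker, inferInstance, ?_, ?_⟩
  · let i : Ix F := ⟨⟨P, φ⟩, h⟩
    refine ⟨⟨⟨FreeGroup.of ⟨i, (1 : A)⟩, σ i⟩, Path.toWord (L := [_])
      ⟨congrArg QuotientGroup.mk (mul_one _), congrArg QuotientGroup.mk
        ((one_mul _).trans (mul_one _).symm)⟩⟩, fun x => Subtype.ext ?_⟩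
    refine eq_mul_inv_iff_mul_eq.2 (SemidirectProduct.ext ?_ (mul_inv_eq_iff_eq_mul.1 (hσ i x)).symm)
    have : (l (tgt i x) • (⟨i, (1 : A)⟩ : Ed F l)) = ⟨i, (1 : A)⟩ :=
      congrArg (Sigma.mk i) (QuotientGroup.eq.2 ⟨x⁻¹, by simp⟩)
    simp only [Subgroup.coe_mul, hι, mul_left, left_inr, right_inr, map_one, one_mul, mul_one]
    exact congrArg FreeGroup.of this
  · obtain ⟨g, hg⟩ := hg
    have h1 : ∀ x : P, l ⟨φ x, hφ x⟩ = g.1.right * l ⟨x, hP x.2⟩ * g.1.right⁻¹ := fun x =>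
      congrArg (fun g : G => g.1.right) (hg x)
    obtain ⟨f, hf, e⟩ := At.of_path hσ (k := fun x => l ⟨φ x, hφ x⟩) (τ := 1) (ρ := g.1.right * 1) hl
      g.2 (fun u => by
        have h2 := congrArg (fun g : G => g.1.left) (eq_mul_inv_iff_mul_eq.1 (hg u))
        have h3 : ac A _ (l ⟨φ u, hφ u⟩) g.1.left = g.1.left := by simpa [hι] using h2
        have h4 := toWord_ac (l ⟨φ u, hφ u⟩) g.1.left
        rw [h3, eq_comm] at h4
        exact List.map_inj_left.1 (h4.trans (List.map_id _).symm))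
      ⟨id, Mor.id F hP, fun u h => by simp [h1, mul_assoc]⟩
    exact hf.hom_mem φ fun x => congrArg Subtype.val (hl (by simpa using (e x (hf.mem x.2)).symm :
      l ⟨φ x, hφ x⟩ = l ⟨f x, hf.mem x.2⟩))
  · obtain ⟨g, e⟩ := exists_fix' (gr_ends hσ) (a := v) (fun b => by
      obtain ⟨τ, rfl⟩ := QuotientGroup.mk_surjective b
      exact ⟨τ, congrArg QuotientGroup.mk (mul_one τ)⟩) H
    refine ⟨g, fun h hh => ?_⟩
    obtain ⟨h1, h2⟩ := e h hh
    generalize g * h * g⁻¹ = k at h1 h2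
    obtain ⟨t, ht⟩ := QuotientGroup.eq.1 (h2 : v = QuotientGroup.mk (k.1.right * 1))
    exact ⟨t, Subtype.ext (SemidirectProduct.ext h1.symm (by simpa [hι] using ht))⟩
  · let j : (rightHom.comp G.subtype).ker →* FreeGroup (Ed F l) := MonoidHom.mk'
      (fun x => x.1.1.left) fun x y => by
        have : x.1.1.right = 1 := x.2
        simp [this]
    exact IsFreeGroup.ofMulEquiv (MonoidHom.ofInjective (f := j) fun x y h =>
      Subtype.ext (Subtype.ext (SemidirectProduct.ext h (x.2.trans y.2.symm)))).symm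
  · rw [Subgroup.index_ker]
    exact Subgroup.card_subgroup_dvd_card _

end CfsgLib.LSt
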