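import Mathlib

/-! The group of lifts to the universal cover of a group action on a graph, as a subgroup of a
semidirect product of a free group; finite subgroups fix a vertex. -/

set_option autoImplicit false

namespace CfsgLib.LSt

open FreeGroup SemidirectProduct

variable {A E V : Type*} [Group A] [MulAction A E] [MulAction A V]

/-- The action on letters. -/
def sm (a : A) (x : E × Bool) : E × Bool := (a • x.1, x.2)

variable (A E) in
/-- The action on the free group. -/
def ac : A →* MulAut (FreeGroup E) := MonoidHom.mk' (fun a => freeGroupCongr (MulAction.toPerm a))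
  fun a b => MulEquiv.toMonoidHom_injective (by ext; simp [mul_smul])

theorem ac_mk (a : A) (L : List (E × Bool)) : ac A E a (mk L) = mk (L.map (sm a)) := rfl

/-- A graph with an action. -/
structure Gr (A : Type*) [Group A] [MulAction A E] [MulAction A V] (s : E × Bool → V) : Prop where
  eqv : ∀ (a : A) x, s (sm a x) = a • s x

/-- Edge paths. -/
def Path (s : E × Bool → V) : V → List (E × Bool) → V → Prop
  | a, [], b => a = b
  | a, x :: L, b => s x = a ∧ Path s (s (x.1, !x.2)) L b

variable {s : E × Bool → V} {a b c : V} {L M : List (E × Bool)}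

theorem path_append : Path s a (L ++ M) c ↔ ∃ b, Path s a L b ∧ Path s b M c := by
  induction L generalizing a with
  | nil => simp [Path]
  | cons x L ih => simp [Path, ih, and_assoc]

theorem Path.inv (h : Path s a L b) : Path s b (invRev L) a := by
  induction L generalizing a with
  | nil => exact h.symm
  | cons x L ih => rw [invRev_cons]; exact path_append.2 ⟨_, ih h.2, rfl, by simpa [Path] using h.1⟩

theorem Path.map (G : Gr A s) (g : A) (h : Path s a L b) : Path s (g • a) (L.map (sm g)) (g • b) := by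
  induction L generalizing a with
  | nil => exact congrArg _ h
  | cons x L ih => exact ⟨by rw [G.eqv, h.1], by have := ih h.2; rwa [← G.eqv] at this⟩

theorem Path.red (h : Red L M) (h' : Path s a L b) : Path s a M b := by
  induction h with
  | refl => exact h'
  | tail _ h ih =>
    cases h
    obtain ⟨c, h1, h2, -, h3⟩ := path_append.1 ih
    exact path_append.2 ⟨c, h1, by simpa [h2] using h3⟩

variable [DecidableEq E]

theorem Path.toWord (h : Path s a L b) : Path s a (mk L).toWord b := h.red reduce.red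

theorem toWord_ac (g : A) (w : FreeGroup E) : (ac A E g w).toWord = w.toWord.map (sm g) := by
  conv_lhs => rw [← mk_toWord (x := w), ac_mk, toWord_mk]
  refine IsReduced.reduce_eq (List.isChain_map_of_isChain _ (fun x y h e => ?_) isReduced_toWord)
  exact h (MulAction.injective g e)

theorem norm_ac (g : A) (w : FreeGroup E) : norm (ac A E g w) = norm w := by
  simp [FreeGroup.norm, toWord_ac]

/-- The group of lifts. -/
def lifts (G : Gr A s) (a : V) : Subgroup (FreeGroup E ⋊[ac A E] A) where
  carrier := {g | Path s a g.left.toWord (g.right • a)}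
  one_mem' := (one_smul A a).symm
  mul_mem' {g h} hg hh := by
    have := (path_append.2 ⟨_, hg, hh.map G g.right⟩).toWord
    rwa [← mul_mk, ← ac_mk, mk_toWord, mk_toWord, ← mul_smul] at this
  inv_mem' {g} hg := by
    have := (hg.inv.map G g.right⁻¹).toWord
    rwa [← ac_mk, ← inv_mk, mk_toWord, inv_smul_smul] at this

variable {x y : E × Bool} {w v : FreeGroup E}

theorem no_cancel (h : ∀ L, w.toWord ≠ x :: L) (h' : v.toWord = x :: M) :
    norm (w⁻¹ * v) = norm w + norm v := by
  have h1 : IsReduced (invRev w.toWord ++ v.toWord) := by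
    have h2 := isReduced_toWord (x := w⁻¹)
    have h3 := isReduced_toWord (x := v)
    rw [toWord_inv] at h2
    rcases e : w.toWord with _ | ⟨y, N⟩
    · simpa using h3
    · rw [e, invRev_cons] at h2
      rw [invRev_cons]
      refine h2.append_overlap ?_ (by simp [invRev])
      rw [h'] at h3 ⊢
      refine isReduced_cons_cons.2 ⟨fun e1 => ?_, h3⟩
      by_contra e2
      exact h N (by rw [e, show y = x from Prod.ext e1 (by simpa using e2)])
  conv_lhs => rw [← mk_toWord (x := w), ← mk_toWord (x := v), inv_mk, mul_mk]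
  simp [FreeGroup.norm, h1.reduce_eq]

theorem shorten (h : w.toWord = x :: L) (h' : w⁻¹.toWord = y :: M) (e : x.2 = y.2) :
    norm ((mk [x])⁻¹ * w * mk [y]) < norm w := by
  have h1 : x :: L = invRev M ++ invRev [y] := by
    rw [← invRev_cons, ← h', toWord_inv, invRev_invRev, h]
  rcases e1 : invRev M with _ | ⟨z, N⟩
  · rw [e1] at h1
    have := congrArg Prod.snd (List.cons.inj h1).1
    simp [e] at this
  · rw [e1] at h1
    obtain ⟨rfl, rfl⟩ := List.cons.inj h1
    have h2 : w = mk [x] * mk N * (mk [y])⁻¹ := by rw [← mk_toWord (x := w), h]; rfl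
    have h3 : (mk [x])⁻¹ * w * mk [y] = mk N := by rw [h2]; group
    rw [h3]
    refine norm_mk_le.trans_lt ?_
    simp [FreeGroup.norm, h]

theorem exists_fix (G : Gr A s) (ht : ∀ b, ∃ g : A, g • a = b) (n : ℕ)
    (H : Subgroup (FreeGroup E ⋊[ac A E] A)) (hH : H ≤ lifts G a) (hn : ∀ h ∈ H, norm h.left ≤ n) :
    ∃ g ∈ lifts G a, ∀ h ∈ H, (g * h * g⁻¹).left = 1 := by
  induction n generalizing H with
  | zero => exact ⟨1, one_mem _, fun h hh => by simpa using hn h hh⟩
  | succ n ih =>
    by_cases h0 : ∀ h ∈ H, norm h.left ≤ n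
    · exact ih H hH h0
    push Not at h0
    obtain ⟨k, hk, hk'⟩ := h0
    obtain ⟨x, M, e⟩ : ∃ x M, k.left.toWord = x :: M := List.exists_cons_of_length_pos
      (Nat.zero_lt_of_lt hk')
    have A1 : ∀ h ∈ H, h.left ≠ 1 → ∃ L, h.left.toWord = x :: L := fun h hh h1 => by
      by_contra! h2
      have h3 := hn _ (H.mul_mem (H.inv_mem hh) hk)
      rw [mul_left, inv_left, inv_right, ← _root_.map_mul, norm_ac, no_cancel h2 e] at h3
      exact h1 (norm_eq_zero.1 (by omega))
    obtain ⟨t, et⟩ := ht (s (x.1, !x.2))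
    let g : FreeGroup E ⋊[ac A E] A := ⟨mk [x], t⟩
    have hk1 : Path s a k.left.toWord (k.right • a) := hH hk
    rw [e] at hk1
    have hg : g ∈ lifts G a := Path.toWord ⟨hk1.1, et.symm⟩
    obtain ⟨g', h1, h2⟩ := ih (H.map (MulAut.conj g⁻¹).toMonoidHom) (by
      rintro _ ⟨h, hh, rfl⟩
      exact mul_mem (mul_mem (inv_mem hg) (hH hh)) (inv_mem (inv_mem hg))) (by
      rintro _ ⟨h, hh, rfl⟩
      have h3 : ((MulAut.conj g⁻¹).toMonoidHom h).left =
          ac A E t⁻¹ ((mk [x])⁻¹ * h.left * mk [sm h.right x]) := by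
        simp [g]; rfl
      rw [h3, norm_ac]
      by_cases h4 : h.left = 1
      · obtain ⟨L, e1⟩ := A1 _ (H.mul_mem hh hk) fun e1 => by
          rw [mul_left, h4, one_mul, map_eq_one_iff _ (MulEquiv.injective _)] at e1
          simp [e1] at hk'
        rw [mul_left, h4, one_mul, toWord_ac, e] at e1
        rw [h4, mul_one, (List.cons.inj e1).1, inv_mul_cancel]
        exact Nat.zero_le n
      · obtain ⟨L, e1⟩ := A1 h hh h4
        obtain ⟨L', e2⟩ := A1 _ (H.inv_mem hh) (by simpa using h4)
        have e3 := congrArg (List.map (sm h.right)) e2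
        rw [← toWord_ac, inv_left, _root_.map_inv (ac A E), MulAut.apply_inv_self, List.map_cons] at e3
        exact Nat.lt_succ_iff.1 ((shorten e1 e3 rfl).trans_le (hn h hh)))
    exact ⟨g' * g⁻¹, mul_mem h1 (inv_mem hg), fun h hh => by
      simpa [mul_assoc] using h2 _ ⟨h, hh, rfl⟩⟩

theorem exists_fix' (G : Gr A s) (ht : ∀ b, ∃ g : A, g • a = b) (H : Subgroup (lifts G a))
    [Finite H] : ∃ g : lifts G a, ∀ h ∈ H, (g * h * g⁻¹).1.left = 1 ∧
      a = (g * h * g⁻¹).1.right • a := by
  obtain ⟨n, hn⟩ := (Set.finite_range fun h : H => norm h.1.1.left).bddAbove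
  obtain ⟨g, hg, e⟩ := exists_fix G ht n _ (Subgroup.map_subtype_le H) (by
    rintro _ ⟨h, hh, rfl⟩; exact hn ⟨⟨h, hh⟩, rfl⟩)
  refine ⟨⟨g, hg⟩, fun h hh => ?_⟩
  have h1 : (⟨g, hg⟩ * h * ⟨g, hg⟩⁻¹ : lifts G a).1.left = 1 := e _ ⟨h, hh, rfl⟩
  have h2 : Path s a _ _ := (⟨g, hg⟩ * h * ⟨g, hg⟩⁻¹ : lifts G a).2
  rw [h1] at h2
  exact ⟨h1, h2⟩

omit [DecidableEq E] in
theorem exists_perm {G H : Type*} [Group G] [Finite G] [Group H] {f g : H →* G}
    (hf : Function.Injective f) (hg : Function.Injective g) :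
    ∃ σ : Equiv.Perm G, ∀ x u, σ (x * f u) = σ x * g u := by
  have A : ∀ f : H →* G, Function.Injective f →
      Function.Bijective fun x : (G ⧸ f.range) × H => x.1.out * f x.2 := fun f hf => by
    refine ⟨fun x y e => ?_, fun x => ?_⟩
    · have h1 : x.1 = y.1 := by
        simpa using congrArg (QuotientGroup.mk (s := f.range)) e
      exact Prod.ext h1 (hf (by simpa [h1] using e))
    · obtain ⟨u, hu⟩ := QuotientGroup.eq.1 (QuotientGroup.out_eq' (QuotientGroup.mk (s := f.range) x))
      exact ⟨(x, u), by simp [hu]⟩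
  have : Finite H := Finite.of_injective f hf
  have h1 := Nat.card_eq_of_bijective _ (A f hf)
  rw [← Nat.card_eq_of_bijective _ (A g hg), Nat.card_prod, Nat.card_prod] at h1
  obtain ⟨β⟩ := Finite.card_eq.1 (Nat.eq_of_mul_eq_mul_right Nat.card_pos h1)
  let e := Equiv.ofBijective _ (A f hf)
  have h2 : ∀ q u, e.symm (q.out * f u) = (q, u) := fun q u => e.symm_apply_eq.2 rfl
  refine ⟨e.symm.trans ((β.prodCongr (Equiv.refl H)).trans (Equiv.ofBijective _ (A g hg))),
    fun x u => ?_⟩
  obtain ⟨⟨q, v⟩, rfl⟩ := (A f hf).2 x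
  simp only [mul_assoc, ← _root_.map_mul, Equiv.trans_apply, h2]
  simp [mul_assoc]

end CfsgLib.LSt
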